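import Mathlib
import Cfsg.Agent.Lib.Helper5.SLGen

set_option autoImplicit false

namespace Cfsg.Agent.Lib.Helper99

open Matrix

section TvCalc

variable {n : ℕ} {F : Type*} [Field F]

/-- the matrix `1 + v φᵀ` -/
def tvm (v φ : Fin n → F) : Matrix (Fin n) (Fin n) F := 1 + vecMulVec v φ

/-- `1 + v φᵀ` lies in `H` -/
def TV (H : Subgroup (SpecialLinearGroup (Fin n) F)) (v φ : Fin n → F) : Prop :=
  ∃ g ∈ H, (g : Matrix (Fin n) (Fin n) F) = tvm v φ

theorem tvm_det (v φ : Fin n → F) : (tvm v φ).det = 1 + φ ⬝ᵥ v := by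
  rw [tvm, vecMulVec_eq (Fin 1), det_one_add_replicateCol_mul_replicateRow]

theorem tvm_mul_tvm (v φ w ψ : Fin n → F) :
    tvm v φ * tvm w ψ = 1 + vecMulVec v φ + vecMulVec w ψ + (φ ⬝ᵥ w) • vecMulVec v ψ := by
  simp only [tvm, add_mul, mul_add, one_mul, mul_one, vecMulVec_mul_vecMulVec, vecMulVec_smul]
  abel

theorem tvm_smul (c : F) (v φ : Fin n → F) : tvm (c • v) φ = tvm v (c • φ) := by
  rw [tvm, tvm, smul_vecMulVec, vecMulVec_smul]

theorem tvm_neg (v φ : Fin n → F) : tvm (-v) φ = tvm v (-φ) := by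
  rw [tvm, tvm, neg_vecMulVec, vecMulVec_neg]

variable {H : Subgroup (SpecialLinearGroup (Fin n) F)}

theorem TV.dot {v φ : Fin n → F} (h : TV H v φ) : φ ⬝ᵥ v = 0 := by
  obtain ⟨g, -, hg⟩ := h
  have h1 := g.2
  rw [hg, tvm_det] at h1
  simpa using h1

theorem TV.zero_right (H : Subgroup (SpecialLinearGroup (Fin n) F)) (v : Fin n → F) : TV H v 0 :=
  ⟨1, one_mem _, by simp [tvm]⟩

theorem TV.zero_left (H : Subgroup (SpecialLinearGroup (Fin n) F)) (φ : Fin n → F) : TV H 0 φ :=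
  ⟨1, one_mem _, by simp [tvm]⟩

theorem TV.add_right {v φ φ' : Fin n → F} (h : TV H v φ) (h' : TV H v φ') : TV H v (φ + φ') := by
  have hd := h.dot
  obtain ⟨g, hg, eg⟩ := h
  obtain ⟨g', hg', eg'⟩ := h'
  refine ⟨g * g', mul_mem hg hg', ?_⟩
  rw [Matrix.SpecialLinearGroup.coe_mul, eg, eg', tvm_mul_tvm, hd, zero_smul, add_zero, tvm,
    vecMulVec_add, add_assoc]

theorem TV.add_left {v v' φ : Fin n → F} (h : TV H v φ) (h' : TV H v' φ) : TV H (v + v') φ := by
  have hd := h'.dot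
  obtain ⟨g, hg, eg⟩ := h
  obtain ⟨g', hg', eg'⟩ := h'
  refine ⟨g * g', mul_mem hg hg', ?_⟩
  rw [Matrix.SpecialLinearGroup.coe_mul, eg, eg', tvm_mul_tvm, hd, zero_smul, add_zero, tvm,
    add_vecMulVec, add_assoc]

theorem TV.neg_right {v φ : Fin n → F} (h : TV H v φ) : TV H v (-φ) := by
  have hd := h.dot
  obtain ⟨g, hg, eg⟩ := h
  have hdet : (tvm v (-φ)).det = 1 := by rw [tvm_det]; simp [hd]
  obtain ⟨x, hx⟩ : ∃ x : Matrix.SpecialLinearGroup (Fin n) F,
      (x : Matrix (Fin n) (Fin n) F) = tvm v (-φ) := ⟨⟨tvm v (-φ), hdet⟩, rfl⟩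
  have hmul : g * x = 1 := by
    apply Subtype.ext
    rw [Matrix.SpecialLinearGroup.coe_mul, eg, hx, tvm_mul_tvm, hd, zero_smul, add_zero,
      vecMulVec_neg, add_assoc, add_neg_cancel, add_zero]
    rfl
  refine ⟨x, ?_, hx⟩
  have h2 : x = g⁻¹ := (inv_eq_of_mul_eq_one_right hmul).symm
  rw [h2]
  exact inv_mem hg

theorem TV.neg_left {v φ : Fin n → F} (h : TV H v φ) : TV H (-v) φ := by
  obtain ⟨g, hg, eg⟩ := h.neg_right
  exact ⟨g, hg, by rw [eg, tvm_neg]⟩

theorem TV.sub_right {v φ φ' : Fin n → F} (h : TV H v φ) (h' : TV H v φ') : TV H v (φ - φ') := by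
  rw [sub_eq_add_neg]
  exact h.add_right h'.neg_right

theorem TV.smul_swap {c : F} {v φ : Fin n → F} (h : TV H v (c • φ)) : TV H (c • v) φ := by
  obtain ⟨g, hg, eg⟩ := h
  exact ⟨g, hg, by rw [eg, tvm_smul]⟩

theorem TV.smul_swap' {c : F} {v φ : Fin n → F} (h : TV H (c • v) φ) : TV H v (c • φ) := by
  obtain ⟨g, hg, eg⟩ := h
  exact ⟨g, hg, by rw [eg, tvm_smul]⟩

theorem TV.zsmul_right {v φ : Fin n → F} (h : TV H v φ) (z : ℤ) : TV H v ((z : F) • φ) := by
  induction z using Int.induction_on with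
  | zero => simpa using TV.zero_right H v
  | succ i ih =>
    have : ((((i : ℤ) + 1 : ℤ)) : F) • φ = ((i : ℤ) : F) • φ + φ := by
      push_cast; rw [add_smul, one_smul]
    rw [this]
    exact ih.add_right h
  | pred i ih =>
    have : (((-(i : ℤ) - 1 : ℤ)) : F) • φ = ((-(i : ℤ) : ℤ) : F) • φ - φ := by
      push_cast; rw [sub_smul, one_smul]
    rw [this]
    exact ih.sub_right h

theorem TV.conj {v φ : Fin n → F} (h : TV H v φ) {a : SpecialLinearGroup (Fin n) F} (ha : a ∈ H) :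
    TV H ((a : Matrix (Fin n) (Fin n) F) *ᵥ v)
      (φ ᵥ* ((a⁻¹ : SpecialLinearGroup (Fin n) F) : Matrix (Fin n) (Fin n) F)) := by
  obtain ⟨g, hg, eg⟩ := h
  refine ⟨a * g * a⁻¹, mul_mem (mul_mem ha hg) (inv_mem ha), ?_⟩
  rw [Matrix.SpecialLinearGroup.coe_mul, Matrix.SpecialLinearGroup.coe_mul, eg, tvm, tvm, mul_add, add_mul,
    mul_one, mul_vecMulVec, vecMulVec_mul]
  congr 1
  rw [← Matrix.SpecialLinearGroup.coe_mul, mul_inv_cancel, Matrix.SpecialLinearGroup.coe_one]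

theorem sl_vecMul_inv (a : SpecialLinearGroup (Fin n) F) (φ : Fin n → F) :
    (φ ᵥ* (a : Matrix (Fin n) (Fin n) F)) ᵥ*
      ((a⁻¹ : SpecialLinearGroup (Fin n) F) : Matrix (Fin n) (Fin n) F) = φ := by
  rw [vecMul_vecMul, ← Matrix.SpecialLinearGroup.coe_mul, mul_inv_cancel, Matrix.SpecialLinearGroup.coe_one,
    vecMul_one]

theorem sl_inv_mulVec (a : SpecialLinearGroup (Fin n) F) (v : Fin n → F) :
    ((a⁻¹ : SpecialLinearGroup (Fin n) F) : Matrix (Fin n) (Fin n) F) *ᵥ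
      ((a : Matrix (Fin n) (Fin n) F) *ᵥ v) = v := by
  rw [mulVec_mulVec, ← Matrix.SpecialLinearGroup.coe_mul, inv_mul_cancel, Matrix.SpecialLinearGroup.coe_one,
    one_mulVec]

/-- the commutator rule -/
theorem TV.comm {v φ w ψ : Fin n → F} (h : TV H v φ) (h' : TV H w ψ) (hψv : ψ ⬝ᵥ v = 0) :
    TV H ((φ ⬝ᵥ w) • v) ψ := by
  obtain ⟨g, hg, eg⟩ := h
  have h1 := h'.conj hg
  have e1 : (g : Matrix (Fin n) (Fin n) F) *ᵥ w = w + (φ ⬝ᵥ w) • v := by
    rw [eg, tvm, add_mulVec, one_mulVec, vecMulVec_mulVec, op_smul_eq_smul]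
  have e3 : ψ ᵥ* (g : Matrix (Fin n) (Fin n) F) = ψ := by
    rw [eg, tvm, vecMul_add, vecMul_one, vecMul_vecMulVec, hψv, zero_smul, add_zero]
  have e2 : ψ ᵥ* ((g⁻¹ : SpecialLinearGroup (Fin n) F) : Matrix (Fin n) (Fin n) F) = ψ := by
    conv_lhs => rw [← e3]
    exact sl_vecMul_inv g ψ
  rw [e1, e2] at h1
  have h2 := h1.add_left h'.neg_left
  have e4 : w + (φ ⬝ᵥ w) • v + -w = (φ ⬝ᵥ w) • v := by abel
  rwa [e4] at h2

/-- the `k`-th standard basis vector (zero if `k ≥ n`) -/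
def ev (n : ℕ) (F : Type*) [Field F] (k : ℕ) : Fin n → F := fun i => if i.val = k then 1 else 0

theorem ev_apply (k : ℕ) (i : Fin n) : ev n F k i = if i.val = k then 1 else 0 := rfl

theorem ev_eq_zero {k : ℕ} (hk : n ≤ k) : ev n F k = 0 := by
  funext i
  have : i.val ≠ k := by have := i.2; omega
  simp [ev, this]

theorem ev_eq_single (i : Fin n) : ev n F i.val = Pi.single i 1 := by
  funext j
  by_cases h : j = i
  · subst h; simp [ev]
  · have : j.val ≠ i.val := fun h' => h (Fin.ext h')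
    simp [ev, this, h]

theorem ev_dot {k : ℕ} (hk : k < n) (v : Fin n → F) : ev n F k ⬝ᵥ v = v ⟨k, hk⟩ := by
  have : ev n F k = Pi.single (⟨k, hk⟩ : Fin n) 1 := ev_eq_single (⟨k, hk⟩ : Fin n)
  rw [this, single_one_dotProduct]

theorem ev_dot_self {k : ℕ} (hk : k < n) : ev n F k ⬝ᵥ ev n F k = 1 := by
  rw [ev_dot hk]; simp [ev]

theorem ev_dot_ne {j k : ℕ} (h : j ≠ k) : ev n F j ⬝ᵥ ev n F k = 0 := by
  by_cases hj : j < n
  · rw [ev_dot hj]; simp [ev, h]
  · rw [ev_eq_zero (by omega)]; simp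

theorem transvection_eq_tvm {i j : Fin n} (hij : i ≠ j) (c : F) :
    ((SpecialLinearGroup.transvection hij c : SpecialLinearGroup (Fin n) F) :
      Matrix (Fin n) (Fin n) F) = tvm (c • ev n F i.val) (ev n F j.val) := by
  rw [Matrix.SpecialLinearGroup.transvection_coe, tvm, ev_eq_single, ev_eq_single]
  congr 1
  ext a b
  simp only [vecMulVec_apply, Matrix.single_apply, Pi.single_apply, Pi.smul_apply, smul_eq_mul,
    eq_comm (a := i), eq_comm (a := j)]
  by_cases h1 : a = i <;> by_cases h2 : b = j <;> simp [h1, h2]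

end TvCalc

section Main

variable {m : ℕ} {F : Type*} [Field F]

local notation "𝐞" => ev (m + 3) F

/-- Abstract generation lemma: a subgroup of `SL_n(F)`, `n ≥ 3`, containing the transvection
`x₀₂(1)`, an "upper" element `u` and a "rotation" `C` with integral inverse is everything. -/
theorem tv_gen_main (H : Subgroup (Matrix.SpecialLinearGroup (Fin (m + 3)) F))
    (u C : Matrix.SpecialLinearGroup (Fin (m + 3)) F) (lam : F) (y : ℕ → ℤ)
    (hu : u ∈ H) (hC : C ∈ H)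
    (h02 : TV H (𝐞 0) (𝐞 2))
    (hu0 : (u : Matrix (Fin (m + 3)) (Fin (m + 3)) F) *ᵥ 𝐞 0 = 𝐞 0)
    (hu1 : 𝐞 1 ᵥ* (u : Matrix (Fin (m + 3)) (Fin (m + 3)) F) = 𝐞 1 + lam • 𝐞 2)
    (hurow : ∀ j, 2 ≤ j → 𝐞 j ᵥ* (u : Matrix (Fin (m + 3)) (Fin (m + 3)) F) = 𝐞 j + 𝐞 (j + 1))
    (hCcol : ∀ k, k + 1 < m + 3 →
        (C : Matrix (Fin (m + 3)) (Fin (m + 3)) F) *ᵥ 𝐞 k = 𝐞 (k + 1))
    (hCrow : ∀ j, j < m + 3 → 𝐞 j ᵥ*
        ((C⁻¹ : Matrix.SpecialLinearGroup (Fin (m + 3)) F) : Matrix (Fin (m + 3)) (Fin (m + 3)) F)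
        = ((y j : ℤ) : F) • 𝐞 0 + 𝐞 (j + 1))
    (hy : y (m + 2) = 1 ∨ y (m + 2) = -1)
    (hlam : ∀ x : F, x ≠ 0 → ∃ k : ℕ, x = lam ^ k) : H = ⊤ := by
  have conjU : ∀ φ, TV H (𝐞 0) φ →
      TV H (𝐞 0) (φ ᵥ* (u : Matrix (Fin (m + 3)) (Fin (m + 3)) F)) := by
    intro φ h
    have h1 := h.conj (inv_mem hu)
    rw [inv_inv] at h1
    have h2 : ((u⁻¹ : Matrix.SpecialLinearGroup (Fin (m + 3)) F) :
        Matrix (Fin (m + 3)) (Fin (m + 3)) F) *ᵥ 𝐞 0 = 𝐞 0 := by
      conv_lhs => rw [← hu0]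
      exact sl_inv_mulVec u _
    rwa [h2] at h1
  have K0 : ∀ j, 2 ≤ j → TV H (𝐞 0) (𝐞 j) := by
    intro j hj
    induction j, hj using Nat.le_induction with
    | base => exact h02
    | succ j hj ih =>
      have h1 := conjU _ ih
      rw [hurow j hj] at h1
      have h2 := h1.sub_right ih
      rwa [add_sub_cancel_left] at h2
  have conjC : ∀ k, k + 1 < m + 3 → ∀ φ, TV H (𝐞 k) φ → TV H (𝐞 (k + 1))
      (φ ᵥ* ((C⁻¹ : Matrix.SpecialLinearGroup (Fin (m + 3)) F) :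
        Matrix (Fin (m + 3)) (Fin (m + 3)) F)) := by
    intro k hk φ h
    have h1 := h.conj hC
    rwa [hCcol k hk] at h1
  have unit : ∀ v, TV H v (((y (m + 2) : ℤ) : F) • 𝐞 0) → TV H v (𝐞 0) := by
    intro v h
    rcases hy with hy | hy
    · rw [hy] at h; simpa using h
    · rw [hy] at h
      have h' := h.neg_right
      simpa using h'
  have K1 : ∀ k, k + 1 < m + 3 → ∀ j, j < m + 3 → j ≠ k → j ≠ k + 1 → TV H (𝐞 k) (𝐞 j) := by
    intro k
    induction k with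
    | zero =>
      intro _ j _ h0 h1
      exact K0 j (by omega)
    | succ k ih =>
      intro hk j hj h0 h1
      have ih' := ih (by omega)
      have t0 : TV H (𝐞 (k + 1)) (𝐞 0) := by
        have h2 := conjC k (by omega) _ (ih' (m + 2) (by omega) (by omega) (by omega))
        rw [hCrow (m + 2) (by omega), ev_eq_zero (by omega : m + 3 ≤ m + 2 + 1), add_zero] at h2
        exact unit _ h2
      rcases Nat.eq_zero_or_pos j with rfl | hjpos
      · exact t0
      · obtain ⟨j', rfl⟩ : ∃ j', j = j' + 1 := ⟨j - 1, by omega⟩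
        have h2 := conjC k (by omega) _ (ih' j' (by omega) (by omega) (by omega))
        rw [hCrow j' (by omega)] at h2
        have h3 := h2.sub_right (t0.zsmul_right (y j'))
        rwa [add_sub_cancel_left] at h3
  have K2 : ∀ k, 1 ≤ k → k + 1 < m + 3 → TV H (𝐞 k) (𝐞 (k + 1)) := by
    intro k hk1 hk
    have h1 := (K1 k hk 0 (by omega) (by omega) (by omega)).comm (K0 (k + 1) (by omega))
      (ev_dot_ne (by omega))
    rwa [ev_dot_self (by omega), one_smul] at h1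
  have K12 : ∀ k, 1 ≤ k → k + 1 < m + 3 → ∀ j, j < m + 3 → j ≠ k → TV H (𝐞 k) (𝐞 j) := by
    intro k hk1 hk j hj hjk
    by_cases h : j = k + 1
    · subst h; exact K2 k hk1 hk
    · exact K1 k hk j hj hjk h
  have t0 : TV H (𝐞 (m + 2)) (𝐞 0) := by
    have h2 := conjC (m + 1) (by omega) _ (K12 (m + 1) (by omega) (by omega) (m + 2) (by omega)
      (by omega))
    rw [hCrow (m + 2) (by omega), ev_eq_zero (by omega : m + 3 ≤ m + 2 + 1), add_zero] at h2
    exact unit _ h2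
  have K3 : ∀ j, j + 1 < m + 3 → TV H (𝐞 (m + 2)) (𝐞 j) := by
    intro j hj
    rcases Nat.eq_zero_or_pos j with rfl | hjpos
    · exact t0
    · obtain ⟨j', rfl⟩ : ∃ j', j = j' + 1 := ⟨j - 1, by omega⟩
      have h2 := conjC (m + 1) (by omega) _ (K12 (m + 1) (by omega) (by omega) j' (by omega)
        (by omega))
      rw [hCrow j' (by omega)] at h2
      have h3 := h2.sub_right (t0.zsmul_right (y j'))
      rwa [add_sub_cancel_left] at h3
  have K4 : TV H (𝐞 0) (𝐞 1) := by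
    have h1 := (K0 (m + 2) (by omega)).comm (K3 1 (by omega)) (ev_dot_ne (by omega))
    rwa [ev_dot_self (by omega), one_smul] at h1
  have R1 : ∀ i j, i < m + 3 → j < m + 3 → i ≠ j → TV H (𝐞 i) (𝐞 j) := by
    intro i j hi hj hij
    rcases Nat.eq_zero_or_pos i with rfl | hipos
    · by_cases h1 : j = 1
      · subst h1; exact K4
      · exact K0 j (by omega)
    · by_cases h2 : i = m + 2
      · subst h2; exact K3 j (by omega)
      · exact K12 i hipos (by omega) j hj (by omega)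
  -- the field step
  have third : ∀ i j : ℕ, ∃ k, k < m + 3 ∧ k ≠ i ∧ k ≠ j := by
    intro i j
    by_cases h0 : 0 ≠ i ∧ 0 ≠ j
    · exact ⟨0, by omega, h0.1, h0.2⟩
    · by_cases h1 : 1 ≠ i ∧ 1 ≠ j
      · exact ⟨1, by omega, h1.1, h1.2⟩
      · exact ⟨2, by omega, by omega, by omega⟩
  let S : F → Prop := fun t => ∀ i j, i < m + 3 → j < m + 3 → i ≠ j → TV H (t • 𝐞 i) (𝐞 j)
  have S1 : S 1 := by
    intro i j hi hj hij
    rw [one_smul]; exact R1 i j hi hj hij
  have Smul : ∀ t s, S t → S s → S (t * s) := by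
    intro t s ht hs i j hi hj hij
    obtain ⟨k, hk, hki, hkj⟩ := third i j
    have h1 := (ht i k hi hk (Ne.symm hki)).comm (hs k j hk hj hkj) (by
      rw [dotProduct_smul, ev_dot_ne (Ne.symm hij), smul_zero])
    rwa [dotProduct_smul, ev_dot_self hk, smul_smul, smul_eq_mul, mul_one, mul_comm] at h1
  have Slam : S lam := by
    have t1 : TV H (lam • 𝐞 0) (𝐞 2) := by
      have h1 := conjU _ K4
      rw [hu1] at h1
      have h2 := h1.sub_right K4
      rw [add_sub_cancel_left] at h2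
      exact h2.smul_swap
    have i1 : ∀ j, j < m + 3 → j ≠ 0 → TV H (lam • 𝐞 0) (𝐞 j) := by
      intro j hj hj0
      by_cases h2 : j = 2
      · subst h2; exact t1
      · have h1 := t1.comm (R1 2 j (by omega) hj (Ne.symm h2)) (by
          rw [dotProduct_smul, ev_dot_ne hj0, smul_zero])
        rwa [ev_dot_self (by omega), one_smul] at h1
    have i2 : ∀ i j, i < m + 3 → j < m + 3 → i ≠ 0 → j ≠ 0 → i ≠ j →
        TV H (lam • 𝐞 i) (𝐞 j) := by
      intro i j hi hj hi0 hj0 hij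
      have h1 := (R1 i 0 hi (by omega) hi0).comm (i1 j hj hj0) (ev_dot_ne (Ne.symm hij))
      rwa [dotProduct_smul, ev_dot_self (by omega), smul_eq_mul, mul_one] at h1
    intro i j hi hj hij
    rcases Nat.eq_zero_or_pos i with rfl | hipos
    · exact i1 j hj (Ne.symm hij)
    · rcases Nat.eq_zero_or_pos j with rfl | hjpos
      · obtain ⟨k, hk, hki, hk0⟩ := third i 0
        have h1 := (i2 i k hi hk (by omega) hk0 (Ne.symm hki)).comm (R1 k 0 hk (by omega) hk0) (by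
          rw [dotProduct_smul, ev_dot_ne (by omega), smul_zero])
        rwa [ev_dot_self hk, one_smul] at h1
      · exact i2 i j hi hj (by omega) (by omega) hij
  have Spow : ∀ k : ℕ, S (lam ^ k) := by
    intro k
    induction k with
    | zero => rw [pow_zero]; exact S1
    | succ k ih => rw [pow_succ]; exact Smul _ _ ih Slam
  have Sall : ∀ t, S t := by
    intro t
    by_cases ht : t = 0
    · subst ht
      intro i j _ _ _
      rw [zero_smul]; exact TV.zero_left H _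
    · obtain ⟨k, rfl⟩ := hlam t ht
      exact Spow k
  apply Cfsg.Agent.Lib.Helper5.eq_top_of_transvection_mem
  intro i j hij c
  obtain ⟨g, hg, eg⟩ := Sall c i.val j.val i.2 j.2 (fun h => hij (Fin.ext h))
  have : Matrix.SpecialLinearGroup.transvection hij c = g := by
    apply Subtype.ext
    rw [eg]
    exact transvection_eq_tvm hij c
  rw [this]; exact hg

end Main

end Cfsg.Agent.Lib.Helper99
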