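import Mathlib
import Cfsg.Agent.Lib.Helper99.TvCalc

set_option autoImplicit false

namespace Cfsg.Agent.Lib.Helper99

open Matrix

section TvMat

variable {n : ℕ} {F : Type*} [Field F]

theorem mulVec_ev (M : Matrix (Fin n) (Fin n) F) {k : ℕ} (hk : k < n) :
    M *ᵥ ev n F k = fun i => M i ⟨k, hk⟩ := by
  have : ev n F k = Pi.single (⟨k, hk⟩ : Fin n) 1 := ev_eq_single (⟨k, hk⟩ : Fin n)
  rw [this, mulVec_single_one]; rfl

theorem ev_vecMul (M : Matrix (Fin n) (Fin n) F) {j : ℕ} (hj : j < n) :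
    ev n F j ᵥ* M = fun l => M ⟨j, hj⟩ l := by
  have : ev n F j = Pi.single (⟨j, hj⟩ : Fin n) 1 := ev_eq_single (⟨j, hj⟩ : Fin n)
  rw [this, single_one_vecMul]; rfl

theorem ext_of_ev_vecMul {A B : Matrix (Fin n) (Fin n) F}
    (h : ∀ i, i < n → ev n F i ᵥ* A = ev n F i ᵥ* B) : A = B := by
  ext i j
  have h1 := congrFun (h i.val i.2) j
  rwa [ev_vecMul _ i.2, ev_vecMul _ i.2] at h1

/-- weighted upper shift: entry `(i, i+1)` is `γ i` -/
def ncMat (n : ℕ) (γ : ℕ → F) : Matrix (Fin n) (Fin n) F :=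
  fun i j => if j.val = i.val + 1 then γ i.val else 0

theorem ncMat_apply (γ : ℕ → F) (i j : Fin n) :
    ncMat n γ i j = if j.val = i.val + 1 then γ i.val else 0 := rfl

theorem one_add_ncMat_det (γ : ℕ → F) : (1 + ncMat n γ).det = 1 := by
  rw [det_of_isUpperTriangular]
  · apply Finset.prod_eq_one
    intro i _
    simp [ncMat_apply]
  · intro i j hij
    have hlt : j.val < i.val := hij
    have h1 : i ≠ j := fun h => by rw [h] at hlt; exact lt_irrefl _ hlt
    have h2 : j.val ≠ i.val + 1 := by omega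
    simp [ncMat_apply, Matrix.one_apply, h2, h1]

theorem ev_vecMul_one_add_ncMat (γ : ℕ → F) (j : ℕ) :
    ev n F j ᵥ* (1 + ncMat n γ) = ev n F j + γ j • ev n F (j + 1) := by
  by_cases hj : j < n
  · rw [ev_vecMul _ hj]
    funext l
    simp only [Matrix.add_apply, Matrix.one_apply, ncMat_apply, Pi.add_apply, Pi.smul_apply,
      ev_apply, smul_eq_mul]
    have h1 : (⟨j, hj⟩ : Fin n) = l ↔ l.val = j := by
      constructor
      · intro h; rw [← h]
      · intro h; exact Fin.ext h.symm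
    simp [h1]
  · rw [ev_eq_zero (by omega), ev_eq_zero (by omega)]; simp

theorem one_add_ncMat_mulVec_ev_zero (γ : ℕ → F) (hn : 0 < n) :
    (1 + ncMat n γ) *ᵥ ev n F 0 = ev n F 0 := by
  rw [mulVec_ev _ hn]
  funext i
  simp only [Matrix.add_apply, Matrix.one_apply, ncMat_apply, ev_apply]
  have h1 : i = (⟨0, hn⟩ : Fin n) ↔ i.val = 0 := by
    constructor
    · intro h; rw [h]
    · intro h; exact Fin.ext h
  simp [h1]

theorem ncMat_pow_apply (γ : ℕ → F) (k : ℕ) (i j : Fin n) :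
    (ncMat n γ ^ k) i j =
      if j.val = i.val + k then ∏ l ∈ Finset.range k, γ (i.val + l) else 0 := by
  induction k generalizing j with
  | zero =>
    simp only [pow_zero, Matrix.one_apply, add_zero, Finset.range_zero, Finset.prod_empty]
    have h1 : i = j ↔ j.val = i.val := by
      constructor
      · intro h; rw [h]
      · intro h; exact Fin.ext h.symm
    simp [h1]
  | succ k ih =>
    rw [pow_succ, Matrix.mul_apply]
    by_cases h : i.val + k < n
    · rw [Finset.sum_eq_single (⟨i.val + k, h⟩ : Fin n)]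
      · rw [ih, ncMat_apply]
        show (if i.val + k = i.val + k then _ else 0) * (if j.val = i.val + k + 1 then _ else 0) = _
        rw [if_pos rfl]
        by_cases h2 : j.val = i.val + k + 1
        · have h3 : j.val = i.val + (k + 1) := by omega
          rw [if_pos h2, if_pos h3, Finset.prod_range_succ]
        · have h3 : j.val ≠ i.val + (k + 1) := by omega
          rw [if_neg h2, if_neg h3, mul_zero]
      · intro l _ hl
        rw [ih]
        have : l.val ≠ i.val + k := fun h' => hl (Fin.ext h')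
        simp [this]
      · intro h'; exact absurd (Finset.mem_univ _) h'
    · have h3 : j.val ≠ i.val + (k + 1) := by have := j.2; omega
      rw [if_neg h3]
      apply Finset.sum_eq_zero
      intro l _
      rw [ih]
      have : l.val ≠ i.val + k := by have := l.2; omega
      simp [this]

theorem ncMat_pow_eq_zero (γ : ℕ → F) : ncMat n γ ^ n = 0 := by
  ext i j
  rw [ncMat_pow_apply]
  have : j.val ≠ i.val + n := by have := j.2; omega
  simp [this]

theorem ncMat_pow_ne_zero (γ : ℕ → F) (hγ : ∀ k, γ k ≠ 0) (hn : 0 < n) :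
    ncMat n γ ^ (n - 1) ≠ 0 := by
  intro h
  have h1 := congrFun (congrFun h ⟨0, hn⟩) ⟨n - 1, by omega⟩
  rw [ncMat_pow_apply] at h1
  simp only [zero_add, if_true, Matrix.zero_apply] at h1
  exact (Finset.prod_ne_zero_iff.mpr fun l _ => hγ _) h1

/-- weighted anti-diagonal matrix -/
def adMat (n : ℕ) (d : ℕ → F) : Matrix (Fin n) (Fin n) F :=
  fun i j => if i.val + j.val + 1 = n then d j.val else 0

theorem adMat_eq (d : ℕ → F) :
    adMat n d = (diagonal fun j : Fin n => d j.val).submatrix Fin.revPerm id := by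
  ext i j
  simp only [adMat, submatrix_apply, id, diagonal_apply, Fin.revPerm_apply]
  by_cases h : i.val + j.val + 1 = n
  · have h1 : Fin.rev i = j := by
      apply Fin.ext; rw [Fin.val_rev]; omega
    simp [h, h1]
  · have h1 : Fin.rev i ≠ j := by
      intro h'; apply h; rw [← h', Fin.val_rev]; have := i.2; omega
    simp [h, h1]

theorem adMat_det (d : ℕ → F) : (adMat n d).det =
    (((Equiv.Perm.sign (Fin.revPerm : Equiv.Perm (Fin n)) : ℤˣ) : ℤ) : F) *
      ∏ j : Fin n, d j.val := by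
  rw [adMat_eq, det_permute, det_diagonal]

theorem ev_vecMul_adMat (d : ℕ → F) {i : ℕ} (hi : i < n) :
    ev n F i ᵥ* adMat n d = d (n - 1 - i) • ev n F (n - 1 - i) := by
  rw [ev_vecMul _ hi]
  funext l
  simp only [adMat, Pi.smul_apply, ev_apply, smul_eq_mul]
  by_cases h : i + l.val + 1 = n
  · have h1 : l.val = n - 1 - i := by omega
    rw [if_pos h, if_pos h1, mul_one, h1]
  · have h1 : l.val ≠ n - 1 - i := by have := l.2; omega
    rw [if_neg h, if_neg h1, mul_zero]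

/-- the lower shift matrix -/
def lsMat (n : ℕ) (R : Type*) [Zero R] [One R] : Matrix (Fin n) (Fin n) R :=
  fun i j => if i.val = j.val + 1 then 1 else 0

theorem lsMat_apply {R : Type*} [Zero R] [One R] (i j : Fin n) :
    lsMat n R i j = if i.val = j.val + 1 then 1 else 0 := rfl

theorem one_add_lsMat_det (R : Type*) [CommRing R] : (1 + lsMat n R).det = 1 := by
  rw [det_of_isLowerTriangular]
  · apply Finset.prod_eq_one
    intro i _
    simp [lsMat_apply]
  · intro i j hij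
    have hlt : i.val < j.val := hij
    have h1 : i ≠ j := fun h => by rw [h] at hlt; exact lt_irrefl _ hlt
    have h2 : i.val ≠ j.val + 1 := by omega
    simp [lsMat_apply, Matrix.one_apply, h2, h1]

theorem ev_zero_vecMul_one_add_lsMat (hn : 0 < n) :
    ev n F 0 ᵥ* (1 + lsMat n F) = ev n F 0 := by
  rw [ev_vecMul _ hn]
  funext l
  simp only [Matrix.add_apply, Matrix.one_apply, lsMat_apply, ev_apply]
  have h1 : (⟨0, hn⟩ : Fin n) = l ↔ l.val = 0 := by
    constructor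
    · intro h; rw [← h]
    · intro h; exact Fin.ext h.symm
  simp [h1]

theorem ev_succ_vecMul_one_add_lsMat {i : ℕ} (hi : i + 1 < n) :
    ev n F (i + 1) ᵥ* (1 + lsMat n F) = ev n F (i + 1) + ev n F i := by
  rw [ev_vecMul _ hi]
  funext l
  simp only [Matrix.add_apply, Matrix.one_apply, lsMat_apply, Pi.add_apply, ev_apply]
  have h1 : (⟨i + 1, hi⟩ : Fin n) = l ↔ l.val = i + 1 := by
    constructor
    · intro h; rw [← h]
    · intro h; exact Fin.ext h.symm
  have h2 : i = l.val ↔ l.val = i := eq_comm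
  simp [h1, h2]

theorem adMat_mul_ncMat (γ d : ℕ → F) (hd : ∀ k, d (k + 1) = γ k * d k) :
    adMat n d * (1 + ncMat n γ) = (1 + lsMat n F) * adMat n d := by
  apply ext_of_ev_vecMul
  intro i hi
  rw [← vecMul_vecMul, ← vecMul_vecMul, ev_vecMul_adMat d hi, smul_vecMul,
    ev_vecMul_one_add_ncMat]
  rcases Nat.eq_zero_or_pos i with rfl | hipos
  · rw [ev_zero_vecMul_one_add_lsMat hi, ev_vecMul_adMat d hi,
      ev_eq_zero (by omega : n ≤ n - 1 - 0 + 1)]
    simp
  · obtain ⟨i', rfl⟩ : ∃ i', i = i' + 1 := ⟨i - 1, by omega⟩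
    rw [ev_succ_vecMul_one_add_lsMat hi, add_vecMul, ev_vecMul_adMat d hi,
      ev_vecMul_adMat d (by omega : i' < n)]
    have e1 : n - 1 - i' = (n - 1 - (i' + 1)) + 1 := by omega
    rw [e1, hd, smul_add, smul_smul, mul_comm]

theorem lsMat_mul_apply {R : Type*} [CommRing R] (X : Matrix (Fin n) (Fin n) R) (i j : Fin n) :
    (lsMat n R * X) i j = if h : 1 ≤ i.val then X ⟨i.val - 1, by omega⟩ j else 0 := by
  rw [Matrix.mul_apply]
  by_cases h : 1 ≤ i.val
  · rw [dif_pos h, Finset.sum_eq_single (⟨i.val - 1, by omega⟩ : Fin n)]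
    · have h1 : i.val = i.val - 1 + 1 := by omega
      rw [lsMat_apply, if_pos h1, one_mul]
    · intro l _ hl
      have h1 : i.val ≠ l.val + 1 := by
        intro h'; apply hl; apply Fin.ext; show l.val = i.val - 1; omega
      rw [lsMat_apply, if_neg h1, zero_mul]
    · intro h'; exact absurd (Finset.mem_univ _) h'
  · rw [dif_neg h]
    apply Finset.sum_eq_zero
    intro l _
    have h1 : i.val ≠ l.val + 1 := by omega
    rw [lsMat_apply, if_neg h1, zero_mul]

end TvMat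

section IntPart

variable (m : ℕ)

/-- `L = 1 + lower shift` over `ℤ` -/
def lzS : Matrix.SpecialLinearGroup (Fin (m + 3)) ℤ :=
  ⟨1 + lsMat (m + 3) ℤ, one_add_lsMat_det ℤ⟩

/-- first column of the powers of `L` -/
theorem lz_pow_col (k : ℕ) (i : Fin (m + 3)) :
    (k < i.val → ((1 + lsMat (m + 3) ℤ) ^ k) i 0 = 0) ∧
    (i.val = k → ((1 + lsMat (m + 3) ℤ) ^ k) i 0 = 1) := by
  induction k generalizing i with
  | zero =>
    constructor
    · intro h
      have h1 : i ≠ 0 := by intro h'; rw [h'] at h; simp at h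
      simp [Matrix.one_apply, h1]
    · intro h
      have h1 : i = 0 := Fin.ext h
      simp [h1]
  | succ k ih =>
    have e : ((1 + lsMat (m + 3) ℤ) ^ (k + 1)) i 0 = ((1 + lsMat (m + 3) ℤ) ^ k) i 0 +
        (if h : 1 ≤ i.val then ((1 + lsMat (m + 3) ℤ) ^ k) ⟨i.val - 1, by omega⟩ 0 else 0) := by
      rw [pow_succ', add_mul, one_mul, Matrix.add_apply, lsMat_mul_apply]
    rw [e]
    constructor
    · intro h
      rw [(ih i).1 (by omega), dif_pos (by omega), (ih ⟨i.val - 1, by omega⟩).1 (by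
        show k < i.val - 1; omega)]
      simp
    · intro h
      rw [(ih i).1 (by omega), dif_pos (by omega), (ih ⟨i.val - 1, by omega⟩).2 (by
        show i.val - 1 = k; omega)]
      simp

/-- the "Pascal" matrix whose columns are `L^k e₀` -/
def pzMat : Matrix (Fin (m + 3)) (Fin (m + 3)) ℤ :=
  fun i k => ((1 + lsMat (m + 3) ℤ) ^ k.val) i 0

theorem pzMat_det : (pzMat m).det = 1 := by
  rw [det_of_isUpperTriangular]
  · apply Finset.prod_eq_one
    intro i _
    exact (lz_pow_col m i.val i).2 rfl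
  · intro i j hij
    exact (lz_pow_col m j.val i).1 hij

def pzS : Matrix.SpecialLinearGroup (Fin (m + 3)) ℤ := ⟨pzMat m, pzMat_det m⟩

/-- the companion-type matrix `P⁻¹ L P` over `ℤ` -/
def czS : Matrix.SpecialLinearGroup (Fin (m + 3)) ℤ := (pzS m)⁻¹ * lzS m * pzS m

theorem lz_mul_pz (i : Fin (m + 3)) (k : ℕ) (hk : k + 1 < m + 3) :
    ((1 + lsMat (m + 3) ℤ) * pzMat m) i ⟨k, by omega⟩ = pzMat m i ⟨k + 1, hk⟩ := by
  show _ = ((1 + lsMat (m + 3) ℤ) ^ (k + 1)) i 0
  rw [pow_succ', Matrix.mul_apply, Matrix.mul_apply]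
  rfl

theorem czS_col (k : ℕ) (hk : k + 1 < m + 3) :
    (czS m : Matrix (Fin (m + 3)) (Fin (m + 3)) ℤ) *ᵥ
      Pi.single (⟨k, by omega⟩ : Fin (m + 3)) 1 = Pi.single (⟨k + 1, hk⟩ : Fin (m + 3)) 1 := by
  have h1 : ((1 + lsMat (m + 3) ℤ) * pzMat m) *ᵥ Pi.single (⟨k, by omega⟩ : Fin (m + 3)) 1 =
      pzMat m *ᵥ Pi.single (⟨k + 1, hk⟩ : Fin (m + 3)) 1 := by
    rw [mulVec_single_one, mulVec_single_one]
    funext i
    exact lz_mul_pz m i k hk
  have h2 : (czS m : Matrix (Fin (m + 3)) (Fin (m + 3)) ℤ) =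
      (((pzS m)⁻¹ : Matrix.SpecialLinearGroup (Fin (m + 3)) ℤ) :
        Matrix (Fin (m + 3)) (Fin (m + 3)) ℤ) * ((1 + lsMat (m + 3) ℤ) * pzMat m) := by
    rw [czS, Matrix.SpecialLinearGroup.coe_mul, Matrix.SpecialLinearGroup.coe_mul, mul_assoc]
    rfl
  have h3 : (((pzS m)⁻¹ : Matrix.SpecialLinearGroup (Fin (m + 3)) ℤ) :
      Matrix (Fin (m + 3)) (Fin (m + 3)) ℤ) * pzMat m = 1 := by
    have h4 : (((pzS m)⁻¹ * pzS m : Matrix.SpecialLinearGroup (Fin (m + 3)) ℤ) :
        Matrix (Fin (m + 3)) (Fin (m + 3)) ℤ) = 1 := by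
      rw [inv_mul_cancel]; rfl
    rwa [Matrix.SpecialLinearGroup.coe_mul] at h4
  rw [h2, ← mulVec_mulVec, h1, mulVec_mulVec, h3, one_mulVec]

theorem czS_apply (i : Fin (m + 3)) (k : ℕ) (hk : k + 1 < m + 3) :
    (czS m : Matrix (Fin (m + 3)) (Fin (m + 3)) ℤ) i ⟨k, by omega⟩ =
      if i.val = k + 1 then 1 else 0 := by
  have h := congrFun (czS_col m k hk) i
  rw [mulVec_single_one, Matrix.col_apply] at h
  rw [h, Pi.single_apply]
  simp [Fin.ext_iff]

theorem czS_inv_apply (j : Fin (m + 3)) (l : ℕ) (hl : l + 1 < m + 3) :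
    (((czS m)⁻¹ : Matrix.SpecialLinearGroup (Fin (m + 3)) ℤ) :
      Matrix (Fin (m + 3)) (Fin (m + 3)) ℤ) j ⟨l + 1, hl⟩ = if j.val = l then 1 else 0 := by
  have h1 : (((czS m)⁻¹ : Matrix.SpecialLinearGroup (Fin (m + 3)) ℤ) :
      Matrix (Fin (m + 3)) (Fin (m + 3)) ℤ) *ᵥ Pi.single (⟨l + 1, hl⟩ : Fin (m + 3)) 1 =
      Pi.single (⟨l, by omega⟩ : Fin (m + 3)) 1 := by
    rw [← czS_col m l hl, mulVec_mulVec, ← Matrix.SpecialLinearGroup.coe_mul, inv_mul_cancel,
      Matrix.SpecialLinearGroup.coe_one, one_mulVec]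
  have h := congrFun h1 j
  rw [mulVec_single_one, Matrix.col_apply] at h
  rw [h, Pi.single_apply]
  simp [Fin.ext_iff]

theorem czS_inv_unit :
    (((czS m)⁻¹ : Matrix.SpecialLinearGroup (Fin (m + 3)) ℤ) :
      Matrix (Fin (m + 3)) (Fin (m + 3)) ℤ) ⟨m + 2, by omega⟩ 0 = 1 ∨
    (((czS m)⁻¹ : Matrix.SpecialLinearGroup (Fin (m + 3)) ℤ) :
      Matrix (Fin (m + 3)) (Fin (m + 3)) ℤ) ⟨m + 2, by omega⟩ 0 = -1 := by
  have h1 : (((czS m)⁻¹ * czS m : Matrix.SpecialLinearGroup (Fin (m + 3)) ℤ) :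
      Matrix (Fin (m + 3)) (Fin (m + 3)) ℤ) ⟨m + 2, by omega⟩ ⟨m + 2, by omega⟩ = 1 := by
    rw [inv_mul_cancel]; simp
  rw [Matrix.SpecialLinearGroup.coe_mul, Matrix.mul_apply, Fin.sum_univ_succ] at h1
  have h2 : ∑ l : Fin (m + 2), (((czS m)⁻¹ : Matrix.SpecialLinearGroup (Fin (m + 3)) ℤ) :
      Matrix (Fin (m + 3)) (Fin (m + 3)) ℤ) ⟨m + 2, by omega⟩ l.succ *
      (czS m : Matrix (Fin (m + 3)) (Fin (m + 3)) ℤ) l.succ ⟨m + 2, by omega⟩ = 0 := by
    apply Finset.sum_eq_zero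
    intro l _
    have h3 := czS_inv_apply m ⟨m + 2, by omega⟩ l.val (by have := l.2; omega)
    have h4 : (⟨l.val + 1, by have := l.2; omega⟩ : Fin (m + 3)) = l.succ := rfl
    rw [h4] at h3
    rw [h3, if_neg (by have := l.2; show m + 2 ≠ l.val; omega), zero_mul]
  rw [h2, add_zero] at h1
  exact Int.eq_one_or_neg_one_of_mul_eq_one h1

end IntPart

section FPart

variable (m : ℕ) (F : Type*) [Field F]

/-- the companion-type matrix over `F` -/
def cF : Matrix.SpecialLinearGroup (Fin (m + 3)) F :=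
  Matrix.SpecialLinearGroup.map (Int.castRingHom F) (czS m)

theorem cF_apply (i j : Fin (m + 3)) :
    (cF m F : Matrix (Fin (m + 3)) (Fin (m + 3)) F) i j =
      (((czS m : Matrix (Fin (m + 3)) (Fin (m + 3)) ℤ) i j : ℤ) : F) := rfl

theorem cF_inv_apply (i j : Fin (m + 3)) :
    (((cF m F)⁻¹ : Matrix.SpecialLinearGroup (Fin (m + 3)) F) :
      Matrix (Fin (m + 3)) (Fin (m + 3)) F) i j =
      (((((czS m)⁻¹ : Matrix.SpecialLinearGroup (Fin (m + 3)) ℤ) :
        Matrix (Fin (m + 3)) (Fin (m + 3)) ℤ) i j : ℤ) : F) := by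
  rw [cF, ← map_inv]
  rfl

theorem cF_col (k : ℕ) (hk : k + 1 < m + 3) :
    (cF m F : Matrix (Fin (m + 3)) (Fin (m + 3)) F) *ᵥ ev (m + 3) F k = ev (m + 3) F (k + 1) := by
  rw [mulVec_ev _ (by omega : k < m + 3)]
  funext i
  rw [cF_apply, czS_apply m i k hk, ev_apply]
  split_ifs <;> simp

/-- first column of the inverse of the companion-type matrix -/
def yF (j : ℕ) : ℤ :=
  if h : j < m + 3 then (((czS m)⁻¹ : Matrix.SpecialLinearGroup (Fin (m + 3)) ℤ) :
      Matrix (Fin (m + 3)) (Fin (m + 3)) ℤ) ⟨j, h⟩ 0 else 0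

theorem cF_row (j : ℕ) (hj : j < m + 3) :
    ev (m + 3) F j ᵥ* (((cF m F)⁻¹ : Matrix.SpecialLinearGroup (Fin (m + 3)) F) :
      Matrix (Fin (m + 3)) (Fin (m + 3)) F) =
      ((yF m j : ℤ) : F) • ev (m + 3) F 0 + ev (m + 3) F (j + 1) := by
  rw [ev_vecMul _ hj]
  funext l
  rw [cF_inv_apply]
  simp only [Pi.add_apply, Pi.smul_apply, ev_apply, smul_eq_mul]
  rcases Nat.eq_zero_or_pos l.val with h0 | hpos
  · have hl : l = 0 := Fin.ext h0
    subst hl
    simp [yF, hj]
  · obtain ⟨l', hl'⟩ : ∃ l', l.val = l' + 1 := ⟨l.val - 1, by omega⟩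
    have hl : l = ⟨l' + 1, by have := l.2; omega⟩ := Fin.ext hl'
    rw [hl, czS_inv_apply]
    have h1 : l' + 1 ≠ 0 := by omega
    by_cases h2 : j = l'
    · subst h2; simp
    · have h4 : ¬ l' = j := fun h => h2 h.symm
      simp [h2, h4]

theorem yF_unit : yF m (m + 2) = 1 ∨ yF m (m + 2) = -1 := by
  have h := czS_inv_unit m
  simpa [yF] using h

theorem lzS_map : ((Matrix.SpecialLinearGroup.map (Int.castRingHom F) (lzS m) :
    Matrix.SpecialLinearGroup (Fin (m + 3)) F) : Matrix (Fin (m + 3)) (Fin (m + 3)) F) =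
    1 + lsMat (m + 3) F := by
  ext i j
  show ((((1 + lsMat (m + 3) ℤ : Matrix (Fin (m + 3)) (Fin (m + 3)) ℤ) i j : ℤ)) : F) = _
  simp only [Matrix.add_apply, Matrix.one_apply, lsMat_apply]
  by_cases h1 : i = j
  · subst h1; simp
  · by_cases h2 : i.val = j.val + 1 <;> simp [h1, h2]

end FPart

section Conj

variable {n : ℕ} {F : Type*} [Field F]

theorem tv_conj_aux (U : Matrix (Fin n) (Fin n) F) (lam : F) (hlam : lam ≠ 0)
    (hu0 : U *ᵥ ev n F 0 = ev n F 0) (hu1 : ev n F 1 ᵥ* U = ev n F 1 + lam • ev n F 2) :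
    tvm (lam⁻¹ • ev n F 0) (ev n F 1) * U =
      U * tvm ((1 : F) • ev n F 0) (ev n F 2) * tvm (lam⁻¹ • ev n F 0) (ev n F 1) := by
  have e20 : ev n F 2 ⬝ᵥ ev n F 0 = 0 := ev_dot_ne (by omega)
  have hL : tvm (lam⁻¹ • ev n F 0) (ev n F 1) * U =
      U + vecMulVec (lam⁻¹ • ev n F 0) (ev n F 1) + vecMulVec (ev n F 0) (ev n F 2) := by
    have a1 : vecMulVec (lam⁻¹ • ev n F 0) (lam • ev n F 2) =
        vecMulVec (ev n F 0) (ev n F 2) := by
      rw [vecMulVec_smul, smul_vecMulVec, smul_smul, mul_inv_cancel₀ hlam, one_smul]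
    rw [tvm, add_mul, one_mul, vecMulVec_mul, hu1, vecMulVec_add, a1, add_assoc]
  have hR : U * tvm ((1 : F) • ev n F 0) (ev n F 2) * tvm (lam⁻¹ • ev n F 0) (ev n F 1) =
      U + vecMulVec (ev n F 0) (ev n F 2) + vecMulVec (lam⁻¹ • ev n F 0) (ev n F 1) := by
    have b1 : U * vecMulVec (ev n F 0) (ev n F 2) = vecMulVec (ev n F 0) (ev n F 2) := by
      rw [mul_vecMulVec, hu0]
    have b2 : U * vecMulVec (lam⁻¹ • ev n F 0) (ev n F 1) =
        vecMulVec (lam⁻¹ • ev n F 0) (ev n F 1) := by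
      rw [mul_vecMulVec, mulVec_smul, hu0]
    have b3 : vecMulVec (ev n F 0) (ev n F 2) * vecMulVec (lam⁻¹ • ev n F 0) (ev n F 1) = 0 := by
      rw [vecMulVec_mul_vecMulVec, dotProduct_smul, e20, smul_zero, zero_smul, vecMulVec_zero]
    simp only [one_smul, tvm, mul_add, add_mul, mul_one, b1, b2, b3, add_zero]
  rw [hL, hR]
  abel

end Conj

end Cfsg.Agent.Lib.Helper99
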